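import Groth.Agent.EtpbcB.HRel
import Groth.Agent.EtpbcA.LAUnit
import Groth.Agent.EtpbcA.SuppClosed
import Groth.Agent.Hensel.Exist
import Groth.Agent.S0073
import Groth.Agent.Vancyc.H686.VanSH

/-!
# Morphisms bijective on the cohomology of a sheaf

`HB f F`: `H^n(Y, F) ⟶ H^n(X, f⁻¹ F)` is bijective for all `n`.
* `hb_comp_iff`: composition;
* `hb_closedPoint`: the closed (geometric) point of a strictly henselian local scheme;
* `hb_punctual`: a geometric point centred at a closed point with separably closed residue field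
  outside of which the sheaf vanishes;
* `hb_strictLoc_punctual`: the same for a strict localization.
-/

set_option autoImplicit false
set_option linter.dupNamespace false
universe u

open CategoryTheory CategoryTheory.Limits AlgebraicGeometry Opposite

namespace Groth.Agent.Vancyc.H694.HB

open Groth.Agent.EtpbcB

attribute [local instance] Groth.Agent.S0101.result

variable {X Y Z : Scheme.{u}}

/-- The pull-back is bijective on the cohomology of `F` in all degrees. -/
def HB (f : X ⟶ Y) (F : EtCoh.Ab Y) : Prop := ∀ n : ℕ, Function.Bijective (EtCore.Hpull f F n)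

theorem bijective_HpullVia_iff (f : X ⟶ Y) (t : Y ⟶ Z) (f₀ : X ⟶ Z) (w : f ≫ t = f₀)
    (G : EtCoh.Ab Z) (p : ℕ) : Function.Bijective (EtCore.HpullVia f t f₀ w G p) ↔
      Function.Bijective (EtCore.Hpull f ((EtCoh.pull t).obj G) p) := by
  have h2 : Function.Bijective ((EtCoh.HF X p).map
      (((EtCore.pullComp f t).symm ≪≫ EtCore.pullCongr w).app G).hom).hom :=
    ConcreteCategory.bijective_of_isIso ((EtCoh.HF X p).map
      (((EtCore.pullComp f t).symm ≪≫ EtCore.pullCongr w).app G).hom)
  exact Function.Bijective.of_comp_iff' h2 _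

theorem hb_comp_iff {f : X ⟶ Y} {g : Y ⟶ Z} {h : X ⟶ Z} (w : f ≫ g = h) {G : EtCoh.Ab Z}
    (hf : HB f ((EtCoh.pull g).obj G)) : HB h G ↔ HB g G := by
  refine forall_congr' fun p => ?_
  have h1 : (EtCore.Hpull h G p : EtCoh.H Z G p → _) =
      EtCore.HpullVia f g h w G p ∘ EtCore.Hpull g G p := by
    funext ξ
    exact (HRel.Hpull_comp f g h w G p ξ).symm
  rw [h1]
  exact Function.Bijective.of_comp_iff' ((bijective_HpullVia_iff f g h w G p).2 (hf p)) _

theorem HB.comp {f : X ⟶ Y} {g : Y ⟶ Z} {h : X ⟶ Z} (w : f ≫ g = h) {G : EtCoh.Ab Z}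
    (hg : HB g G) (hf : HB f ((EtCoh.pull g).obj G)) : HB h G := (hb_comp_iff w hf).2 hg

section SH

variable {A : Type u} [CommRing A] [HenselianLocalRing A]
  [IsSepClosed (IsLocalRing.ResidueField A)]

theorem isSepClosed_residueField_field (Ω : Type u) [Field Ω] [IsSepClosed Ω] :
    IsSepClosed (IsLocalRing.ResidueField Ω) := by
  have hb : Function.Bijective (IsLocalRing.residue Ω) :=
    ⟨RingHom.injective _, Ideal.Quotient.mk_surjective⟩
  let e : Ω ≃+* IsLocalRing.ResidueField Ω := RingEquiv.ofBijective (IsLocalRing.residue Ω) hb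
  exact Groth.Agent.Hensel.Exist.isSepClosed_of_ringEquiv e.symm

/-- The closed geometric point of a strictly henselian local scheme. -/
theorem hb_closedPoint {Ω : Type u} [Field Ω] [IsSepClosed Ω]
    (p : Spec (CommRingCat.of Ω) ⟶ Spec (CommRingCat.of A))
    (hp : p default = IsLocalRing.closedPoint A) (F : EtCoh.Ab (Spec (CommRingCat.of A))) :
    HB p F := by
  intro n
  rcases Nat.eq_zero_or_pos n with rfl | hn
  · rw [EtpbcA.LA.bijective_Hpull_zero_iff]
    exact StrictLocStar.UB_closed p hp F
  · have h1 : Subsingleton (EtCoh.H (Spec (CommRingCat.of A)) F n) := S0073.result A F n hn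
    have := isSepClosed_residueField_field Ω
    have h2 : Subsingleton (EtCoh.H (Spec (CommRingCat.of Ω)) ((EtCoh.pull p).obj F) n) :=
      S0073.result Ω _ n hn
    exact ⟨fun _ _ _ => Subsingleton.elim _ _, fun y => ⟨0, Subsingleton.elim _ _⟩⟩

/-- Extensions of separably closed fields. -/
theorem hb_field {k Ω : Type u} [Field k] [IsSepClosed k] [Field Ω] [IsSepClosed Ω]
    (p : Spec (CommRingCat.of Ω) ⟶ Spec (CommRingCat.of k)) (F : EtCoh.Ab (Spec (CommRingCat.of k))) :
    HB p F := by
  have h2 := isSepClosed_residueField_field k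
  exact hb_closedPoint (A := k) p (Subsingleton.elim (α := PrimeSpectrum k) _ _) F

end SH

section punctual

variable (y : Y) (hy : IsClosed ({y} : Set Y)) (hsep : IsSepClosed (Y.residueField y))

include hy hsep in
/-- A geometric point at the support of a punctual sheaf. -/
theorem hb_punctual (G : EtCoh.Ab Y) (hG : EtPBC.supp G ⊆ {y}) {Ω : Type u} [Field Ω]
    [IsSepClosed Ω] (q : Spec (CommRingCat.of Ω) ⟶ Y) (hq : q default = y) : HB q G := by
  have hci : IsClosedImmersion (Y.fromSpecResidueField y) :=
    isClosed_singleton_iff_isClosedImmersion.mp hy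
  obtain ⟨⟨s, a⟩, rfl⟩ := (Scheme.SpecToEquivOfField Ω Y).symm.surjective q
  obtain rfl : y = s := by simp [← hq, Scheme.SpecToEquivOfField]
  have hr : EtPBC.supp G ⊆ Set.range (Y.fromSpecResidueField y) := by
    rw [Scheme.range_fromSpecResidueField]
    exact hG
  have hu := EtpbcA.SuppClosed.isIso_unit_of_supp (Y.fromSpecResidueField y) G hr
  have h1 : HB (Y.fromSpecResidueField y) G := by
    intro n
    refine Vancyc.H686.VanSH.bijective_Hpull_of_unit (Y.fromSpecResidueField y) G ?_ ?_ ?_ n
    · exact Vancyc.H686.VanMV.allZero_of_isZero (isZero_kernel_of_mono _)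
    · exact Vancyc.H686.VanMV.allZero_of_isZero (isZero_cokernel_of_epi _)
    · intro q hq
      obtain ⟨q, rfl⟩ : ∃ q', q = q' + 1 := ⟨q - 1, by omega⟩
      exact EtpbcA.SuppClosed.isZero_Rpush (Y.fromSpecResidueField y) _ q
  exact h1.comp (f := Spec.map a) rfl (hb_field (k := Y.residueField y) (Spec.map a) _)

end punctual

end Groth.Agent.Vancyc.H694.HB
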