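import Groth.Agent.Vancyc.H694.BijD
import Groth.Agent.Vancyc.H694.HB
import Groth.Agent.Sga4h.GSqEt
import Groth.Agent.Vancyc.H675.AcycPt

/-!
# Local cohomology equals global cohomology for nearby cycles of contractible models

`hb_of_model`: `g : Y ⟶ S = Spec R`, `R` strictly henselian, `y` a closed point of `Y` over the closed
point with separably closed residue field, `t : T ⟶ S` acyclic at the closed point of `S` for `G`,
`j : Y_T ⟶ Y` the base change, `τ : Spec A ⟶ Y` a strict localization at `y`, `m : M ⟶ Y_T` its base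
change.  If `g` preserves the vanishing of cohomology (`Van N g`), base change for `t` holds over
`Y ∖ {y}` and `Spec A`, and `H^*(Y, G) ⟶ H^*(Spec A, G)` is bijective, then
`H^*(Y_T, G) ⟶ H^*(M, G)` is bijective.
-/

set_option autoImplicit false
universe u

open CategoryTheory CategoryTheory.Limits Opposite AlgebraicGeometry Pretriangulated

attribute [local instance] HasDerivedCategory.standard

namespace Groth.Agent.Vancyc.H694.LocGlob

open Groth.Agent.Etbc.H181.HyperDev Groth.Agent.Etbc.H181.HyperExt Groth.Agent.Etbc.H181.HyperPush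
  Groth.Agent.Etbc.H181.HyperEt Groth.Agent.Etrest.DEtPush Groth.Agent.Etrest.DEtMate
  Groth.Agent.Etrest.RDer3 Groth.Agent.Etrest.RDer5 Groth.Agent.Sga4h Groth.Agent.Sga4h.GSq
  Groth.Agent.Sga4h.RPair
  Groth.Agent.Vancyc.H694.BijDer Groth.Agent.Vancyc.H694.HB Groth.Agent.Vancyc.H686.VanMV
  Groth.Agent.Vancyc.H686.Van Groth.Agent.Vancyc.H686.VanSH

attribute [local instance] Groth.Agent.S0101.result

section bc

variable {X Y X' Y' X'' Y'' : Scheme.{u}} {f : X ⟶ Y} {g : Y' ⟶ Y} {f' : X' ⟶ Y'} {g' : X' ⟶ X}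
  (w : g' ≫ f = f' ≫ g) {f'' : X'' ⟶ Y''} {h : Y'' ⟶ Y'} {h' : X'' ⟶ X'}
  (w₂ : h' ≫ f' = f'' ≫ h)

/-- The base change morphism becomes an isomorphism after a further base change along which base
change holds. -/
theorem isIso_pullD_bcEt (K : DCoh.DEt X) (h₂ : BC w₂ ((pullD g').obj K))
    (hc : BC (show (h' ≫ g') ≫ f = f'' ≫ (h ≫ g) by rw [Category.assoc, w, reassoc_of% w₂]) K) :
    IsIso ((pullD h).map ((bcEt w).app K)) := by
  have hε := isUniv_TR (EtCoh.pullPushAdj f) K
  have hε' := isUniv_TR (EtCoh.pullPushAdj f') ((pullD g').obj K)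
  have e1 : (pullD f').map ((bcEt w).app K) ≫
      (dPullPush f').counit.app ((pullD g').obj K) =
        (RPair.sq (cmp w)).bc ((dPullPush f).counit.app K) := by
    have h1 := mate_counit (dPullPush f) (dPullPush f') (cmpD w).hom K
    rw [bcEt_eq_mate]
    exact h1
  have e2 := (RPair.sq (cmp w₂)).bc_naturality ((bcEt w).app K) (𝟙 ((pullD g').obj K))
    (ε := (RPair.sq (cmp w)).bc ((dPullPush f).counit.app K))
    (ε₁ := (dPullPush f').counit.app ((pullD g').obj K)) (e1.trans (Category.comp_id _).symm)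
  have h3 := h₂.isUniv hε'
  refine (h3.isIso_iff _).2 ?_
  have h4 := ((bc_hcomp_iff w w₂ _ K).2 hc).isUniv hε
  rw [Sq.hcomp_bc] at h4
  have e3 : (pullD f'').map ((pullD h).map ((bcEt w).app K)) ≫
      (RPair.sq (cmp w₂)).bc ((dPullPush f').counit.app ((pullD g').obj K)) =
        (RPair.sq (cmp w₂)).bc ((RPair.sq (cmp w)).bc ((dPullPush f).counit.app K)) := by
    refine e2.trans ?_
    refine (congrArg (fun z => (RPair.sq (cmp w₂)).bc
      ((RPair.sq (cmp w)).bc ((dPullPush f).counit.app K)) ≫ z) ((pullD h').map_id _)).trans ?_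
    exact Category.comp_id _
  exact e3 ▸ h4

end bc

section hb

variable {P Y : Scheme.{u}} {τ : P ⟶ Y}

theorem hb_of_ses {S : ShortComplex (EtCoh.Ab Y)} (hS : S.ShortExact) :
    (HB τ S.X₁ → HB τ S.X₂ → HB τ S.X₃) ∧ (HB τ S.X₁ → HB τ S.X₃ → HB τ S.X₂) := by
  have hT := hS.singleTriangle_distinguished
  have e : ∀ F : EtCoh.Ab Y, HB τ F ↔ BijD τ (EtBC.single Y F) := fun F => (bijD_single_iff F).symm
  rw [e, e, e]
  exact ⟨fun h1 h2 => BijD.three hT h1 h2, fun h1 h3 => BijD.two hT h1 h3⟩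

theorem hb_of_iso {F G : EtCoh.Ab Y} (h : HB τ F) (e : F ≅ G) : HB τ G := by
  have e' : ∀ F : EtCoh.Ab Y, HB τ F ↔ BijD τ (EtBC.single Y F) := fun F => (bijD_single_iff F).symm
  rw [e'] at h ⊢
  exact h.of_iso ((DerivedCategory.singleFunctor _ 0).mapIso e)

theorem hb_of_ker_coker {F G : EtCoh.Ab Y} (u : F ⟶ G) (hk : HB τ (kernel u))
    (hc : HB τ (cokernel u)) (hF : HB τ F) : HB τ G := by
  let p := Abelian.factorThruImage u
  let i := Abelian.image.ι u
  have hpi : p ≫ i = u := Abelian.image.fac u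
  have h1 : (ShortComplex.mk (kernel.ι p) p (kernel.condition p)).ShortExact :=
    { exact := ShortComplex.exact_kernel p }
  have h2 : (ShortComplex.mk i (cokernel.π i) (cokernel.condition i)).ShortExact :=
    { exact := ShortComplex.exact_cokernel i }
  have e1 : kernel u ≅ kernel p := kernelIsoOfEq hpi.symm ≪≫ kernelCompMono p i
  have e2 : cokernel u ≅ cokernel i := cokernelIsoOfEq hpi.symm ≪≫ cokernelEpiComp p i
  have hI : HB τ (Abelian.image u) := (hb_of_ses h1).1 (hb_of_iso hk e1) hF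
  exact (hb_of_ses h2).2 hI (hb_of_iso hc e2)

theorem hb_of_allZero {F : EtCoh.Ab Y} (h1 : AllZero F) (h2 : AllZero ((EtCoh.pull τ).obj F)) :
    HB τ F := by
  intro n
  have := h1 n
  have := h2 n
  exact ⟨fun _ _ _ => Subsingleton.elim _ _, fun y => ⟨0, Subsingleton.elim _ _⟩⟩

end hb

section SH

theorem range_eq {X : Scheme.{u}} {Ω : Type u} [Field Ω] (ξ : Spec (CommRingCat.of Ω) ⟶ X) :
    Set.range ξ = {ξ default} := by
  ext x
  constructor
  · rintro ⟨z, rfl⟩
    rw [Subsingleton.elim z default]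
    rfl
  · intro hx
    exact ⟨default, hx.symm⟩

theorem pt_default (A : Type u) [CommRing A] [HenselianLocalRing A]
    [IsSepClosed (IsLocalRing.ResidueField A)] :
    (Etbase.StrictHensPoint.pt A) default = IsLocalRing.closedPoint A := by
  have h : (default : Spec (CommRingCat.of (IsLocalRing.ResidueField A))) =
      IsLocalRing.closedPoint (IsLocalRing.ResidueField A) :=
    Subsingleton.elim (α := Spec (CommRingCat.of (IsLocalRing.ResidueField A))) _ _
  rw [h]
  exact IsLocalRing.comap_closedPoint (IsLocalRing.residue A)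

theorem allZero_iff_not_mem_supp {A : Type u} [CommRing A] [HenselianLocalRing A]
    [IsSepClosed (IsLocalRing.ResidueField A)] (C : EtCoh.Ab (Spec (CommRingCat.of A))) :
    AllZero C ↔ ¬ ((IsLocalRing.closedPoint A : Spec (CommRingCat.of A)) ∈ EtPBC.supp C) := by
  rw [allZero_iff]
  exact (not_iff_comm.1 (EtpbcA.Artin.mem_supp_iff C (IsLocalRing.closedPoint A : Spec (CommRingCat.of A))
    (Etbase.StrictHensPoint.pt A) ((range_eq _).trans (by rw [pt_default]))).symm).symm

variable {R : Type u} [CommRing R] [HenselianLocalRing R] [IsSepClosed (IsLocalRing.ResidueField R)]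

theorem allZero_pull_local {A : Type u} [CommRing A] [HenselianLocalRing A]
    [IsSepClosed (IsLocalRing.ResidueField A)] (φ : Spec (CommRingCat.of A) ⟶ Spec (CommRingCat.of R))
    (hφ : φ (IsLocalRing.closedPoint A) = IsLocalRing.closedPoint R)
    (C : EtCoh.Ab (Spec (CommRingCat.of R))) (hC : AllZero C) : AllZero ((EtCoh.pull φ).obj C) := by
  rw [allZero_iff_not_mem_supp] at hC ⊢
  intro h
  apply hC
  rw [EtpbcA.Artin.supp_pull] at h
  rw [← hφ]
  exact h

/-- Sheaves vanishing outside of `y`. -/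
theorem hb_of_supp {Y : Scheme.{u}} (y : Y) (hy : IsClosed ({y} : Set Y))
    (hsep : IsSepClosed (Y.residueField y)) {A : Type u} [CommRing A] [HenselianLocalRing A]
    [IsSepClosed (IsLocalRing.ResidueField A)] (τ : Spec (CommRingCat.of A) ⟶ Y)
    (hτ : τ (IsLocalRing.closedPoint A) = y) (F : EtCoh.Ab Y) (hF : EtPBC.supp F ⊆ {y}) :
    HB τ F := by
  have h1 : HB (Etbase.StrictHensPoint.pt A) ((EtCoh.pull τ).obj F) :=
    hb_closedPoint _ (pt_default A) _
  refine (hb_comp_iff (f := Etbase.StrictHensPoint.pt A) (g := τ) rfl h1).1 ?_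
  refine hb_punctual y hy hsep F hF _ ?_
  rw [Scheme.Hom.comp_apply, pt_default, hτ]

theorem supp_subset_of_isZero_pull {Y U : Scheme.{u}} (ι : U ⟶ Y) (y : Y)
    (hι : ∀ z : Y, z ≠ y → z ∈ Set.range ι) (F : EtCoh.Ab Y) (hF : IsZero ((EtCoh.pull ι).obj F)) :
    EtPBC.supp F ⊆ {y} := by
  intro z hz
  by_contra hzy
  obtain ⟨u, rfl⟩ := hι z hzy
  have h1 : u ∈ EtPBC.supp ((EtCoh.pull ι).obj F) := by
    rw [EtpbcA.Artin.supp_pull]
    exact hz
  rw [(EtpbcA.Artin.isZero_iff _).1 hF] at h1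
  exact h1

end SH

section main

variable {R : Type u} [CommRing R] [HenselianLocalRing R] [IsSepClosed (IsLocalRing.ResidueField R)]
  {T Y YT : Scheme.{u}} (t : T ⟶ Spec (CommRingCat.of R)) [QuasiCompact t] [QuasiSeparated t]
  (g : Y ⟶ Spec (CommRingCat.of R)) {e : YT ⟶ T} {j : YT ⟶ Y} (w : e ≫ t = j ≫ g)
  (N : ℕ) (G : EtCoh.Ab (Spec (CommRingCat.of R))) (hG : EtCoh.KilledBy N G) (hY : Van N g)
  {Ω : Type u} [Field Ω] [IsSepClosed Ω] (ξ : Spec (CommRingCat.of Ω) ⟶ Spec (CommRingCat.of R))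
  (hξ : ξ default = IsLocalRing.closedPoint R) (hac : H675.AcycPt.AcycPt ξ t G)
  {A : Type u} [CommRing A] [HenselianLocalRing A] [IsSepClosed (IsLocalRing.ResidueField A)]
  (τ : Spec (CommRingCat.of A) ⟶ Y)
  (hτ : (τ ≫ g) (IsLocalRing.closedPoint A) = IsLocalRing.closedPoint R)
  (h0 : HB τ ((EtCoh.pull g).obj G))

include hξ in
theorem allZero_of_stalk
    (C : EtCoh.Ab (Spec (CommRingCat.of R))) (h : IsZero ((EtCoh.stalk ξ).obj C)) : AllZero C := by
  rw [allZero_iff_not_mem_supp]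
  intro h1
  exact (EtpbcA.Artin.mem_supp_iff C _ ξ ((range_eq _).trans (by rw [hξ]))).1 h1 h

include hY hτ in
theorem hb_pull_of_allZero (C : EtCoh.Ab (Spec (CommRingCat.of R))) (hN : EtCoh.KilledBy N C)
    (hC : AllZero C) : HB τ ((EtCoh.pull g).obj C) := by
  refine hb_of_allZero (hY C hN hC) ?_
  rw [allZero_comp (f := g) (g := τ) rfl]
  exact allZero_pull_local (τ ≫ g) hτ C hC

include hG hY hξ hac hτ h0 in
omit [QuasiCompact t] [QuasiSeparated t] in
/-- The inverse images of the direct images along `t`. -/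
theorem hb_pull_Rpush (q : ℕ) :
    HB τ ((EtCoh.pull g).obj ((EtCoh.Rpush t q).obj ((EtCoh.pull t).obj G))) := by
  have hF : EtCoh.KilledBy N ((EtCoh.pull t).obj G) := EtpbcB.NKillEt.killedBy_pull t hG
  rcases Nat.eq_zero_or_pos q with rfl | hq
  · let u : G ⟶ (EtCoh.push t).obj ((EtCoh.pull t).obj G) := (EtCoh.pullPushAdj t).unit.app G
    have hu : IsIso ((EtCoh.stalk ξ).map u) := hac.1
    have kG : EtCoh.KilledBy N ((EtCoh.push t).obj ((EtCoh.pull t).obj G)) :=
      EtpbcB.NKillEt.killedBy_push t hF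
    have kker : EtCoh.KilledBy N (kernel u) := by
      rw [EtpbcB.NKillEt.killedBy_iff] at hG ⊢
      exact EtpbcB.NKill.killed_of_mono (kernel.ι u) hG
    have kcok : EtCoh.KilledBy N (cokernel u) := by
      rw [EtpbcB.NKillEt.killedBy_iff] at kG ⊢
      exact EtpbcB.NKill.killed_of_epi (cokernel.π u) kG
    have h1 : AllZero (kernel u) := allZero_of_stalk ξ hξ _
      (IsZero.of_iso (isZero_kernel_of_mono _) (PreservesKernel.iso (EtCoh.stalk ξ) u))
    have h2 : AllZero (cokernel u) := allZero_of_stalk ξ hξ _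
      (IsZero.of_iso (isZero_cokernel_of_epi _) (PreservesCokernel.iso (EtCoh.stalk ξ) u))
    have h3 : HB τ ((EtCoh.pull g).obj ((EtCoh.push t).obj ((EtCoh.pull t).obj G))) := by
      refine hb_of_ker_coker ((EtCoh.pull g).map u) ?_ ?_ h0
      · exact hb_of_iso (hb_pull_of_allZero g N hY τ hτ _ kker h1) (PreservesKernel.iso (EtCoh.pull g) u)
      · exact hb_of_iso (hb_pull_of_allZero g N hY τ hτ _ kcok h2)
          (PreservesCokernel.iso (EtCoh.pull g) u)
    exact hb_of_iso h3 ((EtCoh.pull g).mapIso ((EtCoh.push t).rightDerivedZeroIsoSelf.app _).symm)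
  · exact hb_pull_of_allZero g N hY τ hτ _ (Sga4h.ConsWO.killedBy_rpush t hF q)
      (allZero_of_stalk ξ hξ _ (hac.2 q hq))

include hG hY hξ hac hτ h0 in
theorem bijD_pull_push : BijD τ ((pullD g).obj ((pushD t).obj (EtBC.single T ((EtCoh.pull t).obj G)))) := by
  have i1 : ((pushD t).obj (EtBC.single T ((EtCoh.pull t).obj G))).IsGE 0 :=
    TR_isGE (EtCoh.push t) _ 0
  have i2 := isGE_mapDerivedCategory (EtCoh.pull g)
    ((pushD t).obj (EtBC.single T ((EtCoh.pull t).obj G))) 0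
  refine bijD_of_homology _ 0 fun i hi => ?_
  obtain ⟨q, rfl⟩ := Int.eq_ofNat_of_zero_le hi
  obtain ⟨e1⟩ := nonempty_homology_iso (EtCoh.pull g)
    ((pushD t).obj (EtBC.single T ((EtCoh.pull t).obj G))) q
  have e2 : DCoh.HDEt ((pushD t).obj (EtBC.single T ((EtCoh.pull t).obj G))) q ≅
      (EtCoh.Rpush t q).obj ((EtCoh.pull t).obj G) := (HTRsingle (EtCoh.push t) q).app _
  have h1 := (bijD_single_iff _).2 (hb_pull_Rpush t g N G hG hY ξ hξ hac τ hτ h0 q)
  exact h1.of_iso ((DerivedCategory.singleFunctor _ 0).mapIso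
    (e1 ≪≫ (EtCoh.pull g).mapIso e2).symm)

variable (y : Y) (hy : IsClosed ({y} : Set Y)) (hsep : IsSepClosed (Y.residueField y))
  (hτy : τ (IsLocalRing.closedPoint A) = y)
  {U UT : Scheme.{u}} (ι : U ⟶ Y) (hι : ∀ z : Y, z ≠ y → z ∈ Set.range ι) {v : UT ⟶ YT} {k : UT ⟶ U}
  (w₂ : v ≫ j = k ≫ ι)

include hy hsep hτy hι in
/-- A cone with cohomology sheaves vanishing outside of `y`. -/
theorem bijD_of_isZero_pullD (C : DCoh.DEt Y) (a : ℤ) [C.IsGE a] (hC : IsZero ((pullD ι).obj C)) :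
    BijD τ C := by
  refine bijD_of_homology C a fun i _ => (bijD_single_iff _).2 ?_
  obtain ⟨e1⟩ := nonempty_homology_iso (EtCoh.pull ι) C i
  refine hb_of_supp y hy hsep τ hτy _ (supp_subset_of_isZero_pull ι y hι _ ?_)
  exact IsZero.of_iso ((DerivedCategory.homologyFunctor _ i).map_isZero hC) e1.symm

include w hG hY hξ hac hτ h0 hy hsep hτy hι in
theorem bijD_push (h₂ : BC w₂ ((pullD e).obj (EtBC.single T ((EtCoh.pull t).obj G))))
    (hc : BC (show (v ≫ e) ≫ t = k ≫ (ι ≫ g) by rw [Category.assoc, w, reassoc_of% w₂])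
      (EtBC.single T ((EtCoh.pull t).obj G))) :
    BijD τ ((pushD j).obj ((pullD e).obj (EtBC.single T ((EtCoh.pull t).obj G)))) := by
  let K := EtBC.single T ((EtCoh.pull t).obj G)
  have hβ := isIso_pullD_bcEt w w₂ K h₂ hc
  have i1 : ((pushD t).obj K).IsGE 0 := TR_isGE (EtCoh.push t) _ 0
  have i2 : ((pullD g).obj ((pushD t).obj K)).IsGE 0 := isGE_mapDerivedCategory (EtCoh.pull g) _ 0
  have i3 : ((pullD e).obj K).IsGE 0 := isGE_mapDerivedCategory (EtCoh.pull e) _ 0
  have i4 : ((pushD j).obj ((pullD e).obj K)).IsGE 0 := TR_isGE (EtCoh.push j) _ 0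
  have i5 : ((pushD t ⋙ pullD g).obj K).IsGE 0 := i2
  have i6 : ((pullD e ⋙ pushD j).obj K).IsGE 0 := i4
  obtain ⟨C, a, b, hT⟩ := distinguished_cocone_triangle ((bcEt w).app K)
  have hCge : C.IsGE (-1) := by
    refine isGE_cone ((bcEt w).app K) (-1) (fun i hi => ?_) ?_ a b hT
    · exact (DerivedCategory.isZero_of_isGE _ 0 i (by lia)).isIso
        (DerivedCategory.isZero_of_isGE _ 0 i (by lia)) _
    · exact ⟨fun _ _ _ => (DerivedCategory.isZero_of_isGE
        ((pullD g).obj ((pushD t).obj K)) 0 (-1) (by lia)).eq_of_tgt _ _⟩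
  have hC0 : IsZero ((pullD ι).obj C) := by
    have hT' := (pullD ι).map_distinguished _ hT
    exact (Triangle.isZero₃_iff_isIso₁ _ hT').2 hβ
  have h3 := bijD_of_isZero_pullD τ y hy hsep hτy ι hι C (-1) hC0
  exact BijD.two hT (bijD_pull_push t g N G hG hY ξ hξ hac τ hτ h0) h3

include w hG hY hξ hac hτ h0 hy hsep hτy hι in
/-- **Local cohomology equals global cohomology.** -/
theorem hb_of_model (h₂ : BC w₂ ((pullD e).obj (EtBC.single T ((EtCoh.pull t).obj G))))
    (hc : BC (show (v ≫ e) ≫ t = k ≫ (ι ≫ g) by rw [Category.assoc, w, reassoc_of% w₂])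
      (EtBC.single T ((EtCoh.pull t).obj G)))
    {M : Scheme.{u}} {m : M ⟶ YT} {pM : M ⟶ Spec (CommRingCat.of A)} (wM : m ≫ j = pM ≫ τ)
    (hM : BC wM ((pullD e).obj (EtBC.single T ((EtCoh.pull t).obj G)))) :
    HB m ((EtCoh.pull e).obj ((EtCoh.pull t).obj G)) := by
  have h1 := bijD_push t g w N G hG hY ξ hξ hac τ hτ h0 y hy hsep hτy ι hι w₂ h₂ hc
  rw [BC_iff] at hM
  have h2 := BijD.of_push wM _ hM h1
  have h3 : BijD m (EtBC.single YT ((EtCoh.pull e).obj ((EtCoh.pull t).obj G))) :=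
    h2.of_iso (((EtCoh.pull e).mapDerivedCategorySingleFunctor 0).app ((EtCoh.pull t).obj G))
  exact (bijD_single_iff _).1 h3

end main

end Groth.Agent.Vancyc.H694.LocGlob
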